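import Mathlib
import Cfsg.Agent.Lib.Transfer.Alperin

/-! The focal subgroup is generated by the commutators occurring in tame intersections. -/

set_option autoImplicit false

namespace CfsgLib.Fgs

open Subgroup CfsgLib.Tech CfsgLib.Transfer
open scoped commutatorElement

theorem sylow_inf_commutator_le_of_tame {G : Type*} [Group G] [Finite G] {p : ℕ} [Fact p.Prime]
    (P : Sylow p G) (R : Subgroup G)
    (step : ∀ (Q : Sylow p G) (x : G),
      IsSylowIn p ((P : Subgroup G) ⊓ normalizer (((P : Subgroup G) ⊓ Q : Subgroup G) : Set G))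
        (normalizer (((P : Subgroup G) ⊓ Q : Subgroup G) : Set G)) →
      IsSylowIn p ((Q : Subgroup G) ⊓ normalizer (((P : Subgroup G) ⊓ Q : Subgroup G) : Set G))
        (normalizer (((P : Subgroup G) ⊓ Q : Subgroup G) : Set G)) →
      x ∈ normalizer (((P : Subgroup G) ⊓ Q : Subgroup G) : Set G) →
      (Q = P ∨ x ∈ (P : Subgroup G) ∨ x ∈ (Q : Subgroup G)) →
      ∀ a ∈ (P : Subgroup G) ⊓ Q, ⁅a, x⁆ ∈ R) :
    (P : Subgroup G) ⊓ commutator G ≤ R := by
  rw [inf_comm, commutator_inf_eq_focalSubgroup, focalSubgroup_def, closure_le]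
  rintro _ ⟨h1, x, hx, u, rfl⟩
  refine alperin_induction P (fun A g => ∀ a ∈ A, ⁅a, g⁆ ∈ R) ?_ ?_ step (zpowers x) u
    (zpowers_le.2 hx) ?_ x (mem_zpowers x)
  · intro A B g hAB h a ha
    exact h a (hAB ha)
  · intro A g h h1 h2 a ha
    have := R.mul_mem (h1 a ha) (h2 _ (conj_mem_cj.2 ha))
    have e : ⁅a, h * g⁆ = ⁅a, g⁆ * ⁅g * a * g⁻¹, h⁆ := by
      simp only [commutatorElement_def]; group
    rwa [e]
  · rw [cj_zpowers, zpowers_le]
    have := (P : Subgroup G).mul_mem ((P : Subgroup G).inv_mem h1) hx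
    have e : u * x * u⁻¹ = ⁅x, u⁆⁻¹ * x := by
      simp only [commutatorElement_def]; group
    rwa [e]

end CfsgLib.Fgs
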