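import Mathlib
import Cfsg.Agent.Lib.Fgs.Kegel

/-! Kegel's theorem in the language of splitting automorphisms. -/

set_option autoImplicit false
open Cfsg Subgroup

namespace CfsgLib.Fgs

universe u

theorem kegel_aut (hT : ThompsonNPC.{u}) {G : Type u} [Group G] [Finite G] (α : MulAut G)
    (hp : (orderOf α).Prime)
    (hsplit : ∀ x : G, (((List.range (orderOf α)).map (fun i : ℕ => (α ^ i) x)).prod = 1)) :
    Group.IsNilpotent G := by
  let L := G ⋊[(zpowers α).subtype] (zpowers α)
  have : Finite L := Finite.of_equiv _ SemidirectProduct.equivProd.symm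
  let y : L := SemidirectProduct.inr ⟨α, mem_zpowers α⟩
  let K : Subgroup L := (SemidirectProduct.inl : G →* L).range
  have hKn : K.Normal := by
    rw [show K = (SemidirectProduct.rightHom : L →* zpowers α).ker from
      SemidirectProduct.range_inl_eq_ker_rightHom]
    infer_instance
  have key : ∀ (x : G) (n : ℕ), (SemidirectProduct.inl x * y : L) ^ n =
      SemidirectProduct.inl (((List.range n).map (fun i : ℕ => (α ^ i) x)).prod) * y ^ n := by
    intro x n
    induction n with
    | zero => simp
    | succ n ih =>
      rw [pow_succ, ih, List.range_succ, List.map_append, List.prod_append, map_mul]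
      have e : (SemidirectProduct.inl ((α ^ n) x) : L) = y ^ n * SemidirectProduct.inl x * (y ^ n)⁻¹ := by
        rw [← map_pow, ← map_inv, ← SemidirectProduct.inl_aut]
        rfl
      simp only [List.map_cons, List.map_nil, List.prod_cons, List.prod_nil, mul_one]
      rw [e, pow_succ]
      group
  have hK : Group.IsNilpotent K := by
    refine kegel hT hp K y ?_
    rintro _ ⟨x, rfl⟩
    rw [key, hsplit, map_one, one_mul, ← map_pow]
    rw [show (⟨α, mem_zpowers α⟩ : zpowers α) ^ orderOf α = 1 from
      Subtype.ext (pow_orderOf_eq_one α), map_one]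
  exact Group.nilpotent_of_mulEquiv
    (MonoidHom.ofInjective (SemidirectProduct.inl_injective (φ := (zpowers α).subtype))).symm

end CfsgLib.Fgs
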