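import Mathlib
import Cfsg.Agent.Lib.Fgs.ClassNumber
import Cfsg.Agent.Lib.Fgs.ClassSize
import Cfsg.Agent.Lib.Coprime.Hall

/-!
# The number of conjugacy classes of `π`-elements
-/

set_option autoImplicit false

namespace CfsgLib.Fgs

open Finset Subgroup CfsgLib.Coprime

universe u

variable {G : Type*} [Group G]

/-- The number of conjugacy classes of `π`-elements. -/
noncomputable def kPi (π : Set ℕ) (G : Type*) [Group G] : ℕ :=
  Nat.card {C : ConjClasses G //
    ∀ q : ℕ, q.Prime → (∃ g : G, ConjClasses.mk g = C ∧ q ∣ orderOf g) → q ∈ π}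

theorem orderOf_eq_of_mk_eq {g h : G} (e : ConjClasses.mk g = ConjClasses.mk h) :
    orderOf g = orderOf h := by
  obtain ⟨c, rfl⟩ := isConj_iff.1 (ConjClasses.mk_eq_mk_iff_isConj.1 e)
  exact ((MulAut.conj c).orderOf_eq g).symm

theorem piClass_mk_iff {π : Set ℕ} (x : G) :
    (∀ q : ℕ, q.Prime → (∃ g : G, ConjClasses.mk g = ConjClasses.mk x ∧ q ∣ orderOf g) → q ∈ π) ↔
      IsPiNum π (orderOf x) :=
  ⟨fun h q hq hd => h q hq ⟨x, rfl, hd⟩,
    fun h q hq ⟨_, e, hd⟩ => h q hq (orderOf_eq_of_mk_eq e ▸ hd)⟩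

open Classical in
theorem sum_card_centralizer_pi [Fintype G] (π : Set ℕ) :
    ∑ g ∈ univ.filter (fun g : G => IsPiNum π (orderOf g)), Nat.card (centralizer ({g} : Set G)) =
      kPi π G * Nat.card G := by
  rw [kPi, ← CfsgLib.Char.sum_card_centralizer_filter]
  simp only [piClass_mk_iff]

theorem exists_piNum_mul (π : Set ℕ) {n : ℕ} (hn : n ≠ 0) :
    ∃ m k : ℕ, n = m * k ∧ IsPiNum π m ∧ IsPiNum πᶜ k := by
  induction n using Nat.recOnMul with
  | zero => exact absurd rfl hn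
  | one => exact ⟨1, 1, rfl, IsPiNum.one _, IsPiNum.one _⟩
  | prime p hp =>
    by_cases h : p ∈ π
    · exact ⟨p, 1, (mul_one p).symm, pow_one p ▸ IsPiNum.of_prime_pow hp h, IsPiNum.one _⟩
    · exact ⟨1, p, (one_mul p).symm, IsPiNum.one _, pow_one p ▸ IsPiNum.of_prime_pow hp h⟩
  | mul a b iha ihb =>
    obtain ⟨m, k, rfl, h1, h2⟩ := iha (left_ne_zero_of_mul hn)
    obtain ⟨m', k', rfl, h1', h2'⟩ := ihb (right_ne_zero_of_mul hn)
    exact ⟨m * m', k * k', by ring, h1.mul h1', h2.mul h2'⟩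

/-- An exponent `e` such that `g ^ e` is the `π`-part of `g` for all `g`. -/
theorem exists_pi_exponent (π : Set ℕ) (G : Type*) [Group G] [Finite G] :
    ∃ e : ℕ, (∀ g : G, IsPiNum π (orderOf (g ^ e))) ∧ (∀ g : G, IsPiNum π (orderOf g) → g ^ e = g) ∧
      ∀ g : G, IsPiNum πᶜ (orderOf g) → g ^ e = 1 := by
  obtain ⟨m, k, h, h1, h2⟩ := exists_piNum_mul π (Nat.card_pos (α := G)).ne'
  obtain ⟨e, he1, he2⟩ := Nat.chineseRemainder (h1.coprime h2) 1 0
  have hk : k ∣ e := (Nat.modEq_zero_iff_dvd).1 he2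
  refine ⟨e, fun g => h1.of_dvd (orderOf_dvd_of_pow_eq_one ?_), fun g hg => ?_, fun g hg => ?_⟩
  · rw [← pow_mul, ← orderOf_dvd_iff_pow_eq_one]
    exact (orderOf_dvd_natCard g).trans (by rw [h, mul_comm]; exact Nat.mul_dvd_mul_right hk m)
  · conv_rhs => rw [← pow_one g]
    rw [pow_eq_pow_iff_modEq]
    exact he1.of_dvd ((hg.coprime h2).dvd_of_dvd_mul_right (h ▸ orderOf_dvd_natCard g))
  · rw [← orderOf_dvd_iff_pow_eq_one]
    exact ((h1.coprime hg).symm.dvd_of_dvd_mul_left (h ▸ orderOf_dvd_natCard g)).trans hk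

/-- `k_π(G) ≤ k_π(N) k_π(G/N)`. -/
theorem kPi_le_mul_quotient [Finite G] (π : Set ℕ) (N : Subgroup G) [N.Normal] :
    kPi π G ≤ kPi π N * kPi π (G ⧸ N) := by
  classical
  have := Fintype.ofFinite G
  obtain ⟨e, he1, he2, -⟩ := exists_pi_exponent π G
  have h1 : ∀ x : G, Nat.card (centralizer ({x} : Set G)) ≤
      Nat.card (centralizer ({(x : G ⧸ N)} : Set (G ⧸ N))) *
        Nat.card ↥(N ⊓ centralizer ({x} : Set G)) := by
    intro x
    rw [← CfsgLib.Core.card_map_mk'_mul_card_inf _ N, inf_comm]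
    exact Nat.mul_le_mul_right _ (card_le_of_le (map_cent_le (QuotientGroup.mk' N) x))
  have h2 : ∀ q : G ⧸ N, ∑ x ∈ (univ.filter (fun g : G => IsPiNum π (orderOf g))).filter
      (fun x : G => (x : G ⧸ N) = q), Nat.card ↥(N ⊓ centralizer ({x} : Set G)) ≤
        kPi π N * Nat.card N := by
    intro q
    have h3 : ∑ x ∈ (univ.filter (fun g : G => IsPiNum π (orderOf g))).filter
        (fun x : G => (x : G ⧸ N) = q), Nat.card ↥(N ⊓ centralizer ({x} : Set G)) ≤
        ∑ n ∈ univ.filter (fun n : N => IsPiNum π (orderOf n)),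
          (univ.filter fun x : G => (x : G ⧸ N) = q ∧ x * n = n * x).card := by
      rw [kcl_sum_card_inf_centralizer, ← card_sigma, ← card_sigma]
      refine card_le_card_of_injOn (fun z => ⟨z.1 ^ e, z.2 * (z.1 * (z.1 ^ e)⁻¹ : N)⟩) ?_ ?_
      · rintro ⟨n, x⟩ hz
        simp only [coe_sigma, coe_univ, coe_filter, mem_filter, mem_univ, true_and, Set.mem_sigma_iff,
          Set.mem_univ, Set.mem_ofPred_eq] at hz ⊢
        have hc : Commute x n := hz.2
        refine ⟨by rw [← orderOf_coe]; exact he1 n, ?_, ?_⟩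
        · rw [QuotientGroup.mk_mul, (QuotientGroup.eq_one_iff _).2 (n * (n ^ e)⁻¹).2, mul_one, hz.1.2]
        · exact ((hc.pow_right e).mul_left ((Commute.self_pow (n : G) e).mul_left
            (Commute.refl _).inv_left)).eq
      · have key : ∀ (n : N) (x : G), IsPiNum π (orderOf x) → Commute x n →
            (x * (n * (n ^ e)⁻¹ : N)) ^ e = x := by
          intro n x hx hc
          rw [Subgroup.coe_mul, Subgroup.coe_inv, Subgroup.coe_pow, (hc.mul_right (hc.pow_right e).inv_right).mul_pow, he2 x hx,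
            (Commute.self_pow (n : G) e).inv_right.mul_pow, inv_pow, he2 _ (he1 n), mul_inv_cancel,
            mul_one]
        rintro ⟨n, x⟩ hz ⟨n', x'⟩ hz' hzz
        simp only [coe_sigma, coe_univ, coe_filter, mem_filter, mem_univ, true_and, Set.mem_sigma_iff,
          Set.mem_univ, Set.mem_ofPred_eq] at hz hz'
        simp only [Sigma.mk.injEq, heq_eq_eq] at hzz ⊢
        have hx : x = x' := by rw [← key n x hz.1.1 hz.2, ← key n' x' hz'.1.1 hz'.2, hzz.2]
        subst hx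
        have h4 := Subtype.ext (mul_left_cancel hzz.2)
        rw [hzz.1] at h4
        exact ⟨mul_right_cancel h4, rfl⟩
    refine h3.trans ?_
    rw [← sum_card_centralizer_pi]
    refine sum_le_sum fun n _ => ?_
    rw [kcl_card_centralizer_subgroup, kcl_card_inf_centralizer]
    rcases (univ.filter fun x : G => (x : G ⧸ N) = q ∧ x * n = n * x).eq_empty_or_nonempty with
      h | ⟨x₀, hx₀⟩
    · rw [h]; simp
    refine card_le_card_of_injOn (fun x => x₀⁻¹ * x) ?_ fun a _ b _ hab => mul_left_cancel hab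
    intro x hx
    simp only [coe_filter, mem_filter, mem_univ, true_and, Set.mem_ofPred_eq] at hx hx₀ ⊢
    exact ⟨QuotientGroup.eq.mp (hx₀.1.trans hx.1.symm),
      ((Commute.inv_left hx₀.2).mul_left hx.2).symm.eq⟩
  have h3 : kPi π G * Nat.card G ≤
      kPi π (G ⧸ N) * Nat.card (G ⧸ N) * (kPi π N * Nat.card N) := by
    rw [← sum_card_centralizer_pi, ← sum_card_centralizer_pi, sum_mul]
    refine (sum_le_sum fun x _ => h1 x).trans ?_
    rw [← sum_fiberwise_of_maps_to (t := univ.filter fun q : G ⧸ N => IsPiNum π (orderOf q))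
      (g := fun x : G => (x : G ⧸ N)) fun x hx => mem_filter.2 ⟨mem_univ _,
        (mem_filter.1 hx).2.of_dvd (orderOf_map_dvd (QuotientGroup.mk' N) x)⟩]
    refine sum_le_sum fun q _ => ?_
    refine le_trans (le_of_eq ?_) (Nat.mul_le_mul_left _ (h2 q))
    rw [mul_sum]
    refine sum_congr rfl fun x hx => ?_
    rw [(mem_filter.mp hx).2]
  rw [card_eq_card_quotient_mul_card_subgroup N] at h3
  refine Nat.le_of_mul_le_mul_right (c := Nat.card (G ⧸ N) * Nat.card N) (h3.trans_eq (by ring)) ?_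
  exact Nat.mul_pos Nat.card_pos Nat.card_pos

theorem card_commPairs_eq_sum [Finite G] (m : ℕ) [Fintype {g : G // g ^ m = 1}] :
    Nat.card {z : G × G // z.1 ^ m = 1 ∧ Commute z.1 z.2} =
      ∑ g : {g : G // g ^ m = 1}, Nat.card (centralizer ({(g : G)} : Set G)) := by
  rw [← Nat.card_sigma]
  exact Nat.card_congr
    { toFun := fun z => ⟨⟨z.1.1, z.2.1⟩, z.1.2, mem_cent_iff.2 z.2.2⟩
      invFun := fun z => ⟨(z.1, z.2), z.1.2, mem_cent_iff.1 z.2.2⟩
      left_inv := fun _ => rfl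
      right_inv := fun _ => rfl }

theorem card_commPairs_eq [Finite G] (m : ℕ) :
    Nat.card {z : G × G // z.1 ^ m = 1 ∧ Commute z.1 z.2} =
      Nat.card {C : ConjClasses G // ∃ g : G, ConjClasses.mk g = C ∧ g ^ m = 1} * Nat.card G := by
  classical
  have := Fintype.ofFinite G
  rw [card_commPairs_eq_sum, ← CfsgLib.Char.sum_card_centralizer_filter]
  refine (sum_subtype _ (fun x => ?_) fun g : G => Nat.card (centralizer ({g} : Set G))).symm
  simp only [mem_filter, mem_univ, true_and]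
  refine ⟨fun ⟨g, e, hg⟩ => ?_, fun h => ⟨x, rfl, h⟩⟩
  rwa [← orderOf_dvd_iff_pow_eq_one, ← orderOf_eq_of_mk_eq e, orderOf_dvd_iff_pow_eq_one]

theorem card_commPairs_le (m : ℕ) : m ≠ 0 → ∀ (G : Type u) [Group G] [Finite G],
    (∀ p : ℕ, p.Prime → p ∣ m → ∀ k, p ^ k ∣ Nat.card G → p ^ k ∣ m) →
      Nat.card {z : G × G // z.1 ^ m = 1 ∧ Commute z.1 z.2} ≤ m * Nat.card G := by
  induction m using Nat.recOnPosPrimePosCoprime with
  | zero => exact fun h => absurd rfl h
  | one =>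
    intro _ G _ _ _
    rw [one_mul]
    refine Nat.card_le_card_of_injective (fun z => z.1.2) ?_
    rintro ⟨⟨a, b⟩, h, hc⟩ ⟨⟨a', b'⟩, h', hc'⟩ e
    rw [pow_one] at h h'
    exact Subtype.ext (Prod.ext (h.trans h'.symm) e)
  | prime_pow p k hp hk =>
    intro hm G _ _ h
    have := Fact.mk hp
    rw [card_commPairs_eq]
    refine Nat.mul_le_mul_right _ ?_
    obtain ⟨P⟩ : Nonempty (Sylow p G) := inferInstance
    obtain ⟨l, hl⟩ := P.isPGroup'.exists_card_eq
    refine le_trans ?_ (Nat.le_of_dvd (Nat.pos_of_ne_zero hm) (h p hp (dvd_pow_self p hk.ne') l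
      (hl ▸ card_subgroup_dvd_card _)))
    rw [← hl]
    have key : ∀ C : {C : ConjClasses G // ∃ g : G, ConjClasses.mk g = C ∧ g ^ p ^ k = 1},
        ∃ x : P, ConjClasses.mk (x : G) = C := by
      rintro ⟨C, g, rfl, hg⟩
      obtain ⟨j, -, hj⟩ := (Nat.dvd_prime_pow hp).1 (orderOf_dvd_of_pow_eq_one hg)
      obtain ⟨Q, hQ⟩ := exists_sylow_mem ⟨j, hj⟩
      obtain ⟨c, rfl⟩ := MulAction.exists_smul_eq G P Q
      exact ⟨⟨c⁻¹ * g * c, Core.mem_conj_smul_iff.1 hQ⟩,
        ConjClasses.mk_eq_mk_iff_isConj.2 (isConj_iff.2 ⟨c, by group⟩)⟩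
    choose f hf using key
    exact Nat.card_le_card_of_injective f fun C D e => Subtype.ext (by rw [← hf, e, hf])
  | coprime a b ha hb hab iha ihb =>
    intro hm G _ _ h
    classical
    have := Fintype.ofFinite G
    have key := fun z : {z : G × G // z.1 ^ (a * b) = 1 ∧ Commute z.1 z.2} =>
      exists_coprime_parts hab (orderOf_dvd_of_pow_eq_one z.2.1)
    choose u v hu hv huv hc hua hvb using key
    have hcomm : ∀ (z : {z : G × G // z.1 ^ (a * b) = 1 ∧ Commute z.1 z.2}) (w : G),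
        w ∈ zpowers z.1.1 → Commute w z.1.2 := by
      rintro z _ ⟨j, rfl⟩
      exact z.2.2.zpow_left j
    let F : {z : G × G // z.1 ^ (a * b) = 1 ∧ Commute z.1 z.2} →
        Σ g : {g : G // g ^ a = 1}, {w : centralizer ({(g : G)} : Set G) ×
          centralizer ({(g : G)} : Set G) // w.1 ^ b = 1 ∧ Commute w.1 w.2} :=
      fun z => ⟨⟨u z, orderOf_dvd_iff_pow_eq_one.1 (hua z)⟩,
        (⟨v z, mem_cent_iff.2 (hc z)⟩, ⟨z.1.2, mem_cent_iff.2 (hcomm z _ (hu z))⟩),
        Subtype.ext (orderOf_dvd_iff_pow_eq_one.1 (hvb z)), Subtype.ext (hcomm z _ (hv z))⟩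
    have hF : Function.Injective F := by
      intro z z' e
      have e1 := congrArg (fun w => ((w.1 : G) * (w.2.1.1 : G), (w.2.1.2 : G))) e
      simp only [F, huv] at e1
      exact Subtype.ext e1
    refine (Nat.card_le_card_of_injective F hF).trans ?_
    rw [Nat.card_sigma]
    have h1 := iha (by omega) G fun p hp hd k hk => (Nat.Coprime.pow_left k
      (hab.coprime_dvd_left hd)).dvd_of_dvd_mul_right (h p hp (hd.mul_right b) k hk)
    rw [card_commPairs_eq_sum] at h1
    refine le_trans (sum_le_sum fun g _ => ihb (by omega) _ fun p hp hd k hk => (Nat.Coprime.pow_left k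
      (hab.symm.coprime_dvd_left hd)).dvd_of_dvd_mul_left (h p hp (hd.mul_left a) k
        (hk.trans (card_subgroup_dvd_card _)))) ?_
    rw [← mul_sum, mul_comm a, mul_assoc]
    exact Nat.mul_le_mul_left _ h1

/-- The number of classes of `π`-elements is at most the `π`-part of the group order. -/
theorem kPi_le [Finite G] {π : Set ℕ} {m k : ℕ} (hG : Nat.card G = m * k) (hm : IsPiNum π m)
    (hk : IsPiNum πᶜ k) : kPi π G ≤ m := by
  have hm0 : m ≠ 0 := left_ne_zero_of_mul (hG ▸ Nat.card_pos.ne')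
  have h1 := card_commPairs_le m hm0 G fun p hp hd l hl =>
    ((IsPiNum.of_prime_pow hp (hm p hp hd)).coprime hk).dvd_of_dvd_mul_right (hG ▸ hl)
  rw [card_commPairs_eq] at h1
  refine le_trans (le_of_eq (Nat.card_congr (Equiv.subtypeEquivRight fun C => ?_)))
    (Nat.le_of_mul_le_mul_right h1 Nat.card_pos)
  obtain ⟨x, rfl⟩ := ConjClasses.mk_surjective C
  rw [piClass_mk_iff]
  refine ⟨fun h => ⟨x, rfl, orderOf_dvd_iff_pow_eq_one.1
    ((h.coprime hk).dvd_of_dvd_mul_right (hG ▸ orderOf_dvd_natCard x))⟩, fun ⟨g, e, hg⟩ => ?_⟩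
  exact hm.of_dvd (orderOf_eq_of_mk_eq e ▸ orderOf_dvd_of_pow_eq_one hg)

end CfsgLib.Fgs
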