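import Cfsg.Agent.Lib.Fgs.AutBound
import Cfsg.Agent.Lib.Solv.AutQuot
import Cfsg.Agent.Lib.Frob.Quaternion
import Cfsg.Agent.Lib.PGroup.Basic

/-!
# A `2`-group acting faithfully on a nontrivial abelian group `V` of odd order has `|P : P'| < |V|`
-/

namespace CfsgLib.Fgs

open Subgroup CfsgLib.Coprime CfsgLib.Solv
open scoped commutatorElement

theorem index_commutator_range {P X : Type*} [Group P] [Group X] (f : P →* X) :
    (commutator f.range).index = (commutator P ⊔ f.ker).index := by
  rw [← index_comap_of_surjective _ f.rangeRestrict_surjective, _root_.commutator,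
    ← map_top_of_surjective _ f.rangeRestrict_surjective, ← map_commutator, comap_map_eq,
    MonoidHom.ker_rangeRestrict]
  rfl

theorem relIndex_le_index_commutator {P : Type*} [Group P] [Finite P] {D K : Subgroup P}
    (h : ⁅K, K⁆ ≤ D) : D.relIndex K ≤ (commutator K).index := by
  refine Nat.le_of_dvd (Nat.pos_of_ne_zero index_ne_zero_of_finite) (index_dvd_of_le ?_)
  rw [← map_subtype_le_map_subtype, subgroupOf_map_subtype, map_subtype_commutator]
  exact le_inf h (commutator_le.2 fun a ha b hb =>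
    mul_mem (mul_mem (mul_mem ha hb) (inv_mem ha)) (inv_mem hb))

theorem lemA {X : Type*} [Group X] [Finite X] (hX : commutator X ≠ ⊤) (L : Subgroup X) [L.Normal]
    {b : ℕ} (h : ∀ Y : Subgroup X, (commutator Y).index ≤ b) :
    2 * ((commutator X ⊔ L).index * (⁅L, ⊤⁆ : Subgroup X).relIndex L) ≤ b ^ 2 := by
  set M := commutator X ⊓ L with hM
  set D : Subgroup X := ⁅L, ⊤⁆ with hD
  have hDM : D ≤ M := le_inf (commutator_mono le_top le_rfl) (commutator_le_left _ _)
  have h1 : (commutator X).index = (commutator X ⊔ L).index * M.relIndex L := by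
    rw [← relIndex_mul_index (le_sup_left : commutator X ≤ commutator X ⊔ L), relIndex_sup_left,
      hM, inf_relIndex_right, mul_comm]
  have h2 : D.relIndex L = D.relIndex M * M.relIndex L :=
    (relIndex_mul_relIndex D M L hDM inf_le_right).symm
  have h3 : (commutator X).index ≤ b := by
    have := relIndex_le_index_commutator (D := commutator X) (K := ⊤) le_rfl
    rw [relIndex_top_right] at this
    exact this.trans (h ⊤)
  obtain ⟨x, hx⟩ : ∃ x, x ∉ commutator X := by
    by_contra hc
    push Not at hc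
    exact hX (eq_top_iff.2 fun x _ => hc x)
  have h4 : ⁅M ⊔ zpowers x, M ⊔ zpowers x⁆ ≤ D := by
    have hc : ∀ m ∈ M, ∀ y : X, Commute (m : X ⧸ D) y := by
      intro m hm y
      rw [← commutatorElement_eq_one_iff_commute, ← QuotientGroup.mk'_apply,
        ← QuotientGroup.mk'_apply, ← map_commutatorElement, QuotientGroup.mk'_apply,
        QuotientGroup.eq_one_iff]
      exact commutator_mem_commutator hm.2 trivial
    rw [commutator_le]
    intro y hy z hz
    obtain ⟨m, hm, i, rfl⟩ := PGroup.mem_sup_zpowers_iff.1 hy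
    obtain ⟨n, hn, j, rfl⟩ := PGroup.mem_sup_zpowers_iff.1 hz
    rw [← QuotientGroup.eq_one_iff, ← QuotientGroup.mk'_apply, map_commutatorElement,
      commutatorElement_eq_one_iff_commute, map_mul, map_mul]
    exact ((hc m hm n).mul_right (hc m hm _)).mul_left
      ((hc n hn _).symm.mul_right ((Commute.zpow_zpow_self x i j).map (QuotientGroup.mk' D)))
  have h5 := (relIndex_le_index_commutator h4).trans (h _)
  rw [← relIndex_mul_relIndex D M _ hDM le_sup_left] at h5
  have h6 : 2 ≤ M.relIndex (M ⊔ zpowers x) := by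
    have h7 : M.relIndex (M ⊔ zpowers x) ≠ 1 := fun h =>
      hx (relIndex_eq_one.1 h (mem_sup_right (mem_zpowers x))).1
    have h8 : M.relIndex (M ⊔ zpowers x) ≠ 0 := index_ne_zero_of_finite
    omega
  rw [h2, pow_two]
  calc 2 * ((commutator X ⊔ L).index * (D.relIndex M * M.relIndex L))
      = (commutator X).index * (D.relIndex M * 2) := by rw [h1]; ring
    _ ≤ b * b := Nat.mul_le_mul h3 ((Nat.mul_le_mul_left _ h6).trans h5)

theorem lemB {P X : Type*} [Group P] [Finite P] [Group X] (H : Subgroup P) [H.Normal]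
    (hH : H.index = 2) (ρ : H →* X) (hρ : Function.Surjective ρ) (g : P)
    (hK : ρ.ker ⊓ (ρ.comp (MulAut.conjNormal g).toMonoidHom).ker = ⊥) :
    (commutator P).index ≤ 2 * ((commutator X ⊔
      (ρ.comp (MulAut.conjNormal g).toMonoidHom).ker.map ρ).index *
      (⁅(ρ.comp (MulAut.conjNormal g).toMonoidHom).ker.map ρ, ⊤⁆ : Subgroup X).relIndex
        ((ρ.comp (MulAut.conjNormal g).toMonoidHom).ker.map ρ)) := by
  set K' := (ρ.comp (MulAut.conjNormal g).toMonoidHom).ker with hK'
  have hle : commutator P ≤ H := Core.commutator_le_of_index_prime (hH ▸ Nat.prime_two)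
  set Q := (commutator P).subgroupOf H with hQ
  have h1 : (commutator P).index = 2 * ((Q ⊔ K').index * Q.relIndex K') := by
    rw [← relIndex_mul_index hle, hH, mul_comm, relIndex, ← hQ,
      ← relIndex_mul_index (le_sup_left : Q ≤ Q ⊔ K'), relIndex_sup_left, mul_comm (Q.relIndex K')]
  have hcQ : commutator H ≤ Q := by
    rw [← map_subtype_le_map_subtype, subgroupOf_map_subtype, map_subtype_commutator]
    exact le_inf (commutator_mono le_top le_top) (commutator_le_right H H)
  rw [h1]
  refine Nat.mul_le_mul_left _ (Nat.mul_le_mul ?_ ?_)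
  · rw [← index_comap_of_surjective _ hρ]
    refine Nat.le_of_dvd (Nat.pos_of_ne_zero index_ne_zero_of_finite) (index_dvd_of_le ?_)
    rw [_root_.commutator, ← map_top_of_surjective _ hρ, ← map_commutator, ← Subgroup.map_sup,
      comap_map_eq]
    refine sup_le (sup_le_sup_right hcQ _) fun k hk => ?_
    have h2 : MulAut.conjNormal g⁻¹ k ∈ K' := by
      rw [hK', MonoidHom.mem_ker]
      simpa using hk
    have h3 : k * (MulAut.conjNormal g⁻¹ k)⁻¹ ∈ Q := by
      rw [hQ, mem_subgroupOf]
      have : ⁅(k : P), g⁻¹⁆ ∈ commutator P := commutator_mem_commutator trivial trivial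
      simpa [commutatorElement_def, mul_assoc] using this
    simpa using mul_mem_sup h3 h2
  · have hcard : ∀ S : Subgroup H, S ≤ K' → Nat.card (S.map ρ) = Nat.card S := by
      intro S hS
      have := Core.card_map_mul_card_inf_ker ρ S
      rwa [eq_bot_iff.2 ((inf_le_inf_right _ hS).trans (inf_comm K' _ ▸ hK.le)), card_bot,
        mul_one] at this
    have h2 : (⁅K', ⊤⁆ : Subgroup H) ≤ K' := commutator_le_left _ _
    have h3 := Core.card_mul_relIndex_of_le h2
    have h4 := Core.card_mul_relIndex_of_le (map_mono (f := ρ) h2)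
    rw [hcard _ h2, hcard _ le_rfl, ← h3, map_commutator, map_top_of_surjective _ hρ] at h4
    rw [Nat.eq_of_mul_eq_mul_left Nat.card_pos h4]
    exact Nat.le_of_dvd (Nat.pos_of_ne_zero index_ne_zero_of_finite)
      (relIndex_dvd_of_le_left _ ((commutator_mono le_top le_rfl).trans hcQ))

/-- The fixed points of one element. -/
def fixOne {P V : Type*} [Group P] [Group V] (φ : P →* MulAut V) (x : P) : Subgroup V where
  carrier := {v | φ x v = v}
  one_mem' := map_one _
  mul_mem' := fun ha hb => by rw [Set.mem_ofPred_eq, map_mul, ha, hb]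
  inv_mem' := fun ha => by rw [Set.mem_ofPred_eq, map_inv, ha]

theorem mem_fixOne {P V : Type*} [Group P] [Group V] {φ : P →* MulAut V} {x : P} {v : V} :
    v ∈ fixOne φ x ↔ φ x v = v := Iff.rfl

theorem apply_mem_fixOne {P V : Type*} [Group P] [Group V] {φ : P →* MulAut V} {x : P} {v : V}
    (hv : v ∈ fixOne φ x) (g : P) : φ g v ∈ fixOne φ (g * x * g⁻¹) := by
  rw [mem_fixOne] at hv ⊢
  simp [hv]

theorem zpow_apply_of_mem_fixOne {P V : Type*} [Group P] [Group V] {φ : P →* MulAut V} {x : P}
    {v : V} (hv : v ∈ fixOne φ x) {y : P} (hy : y ∈ zpowers x) : v ∈ fixOne φ y :=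
  (zpowers_le.2 (show x ∈ (MulAction.stabilizer (MulAut V) v).comap φ from hv)) hy

theorem autInv_fixOne {P V : Type*} [Group P] [Group V] {φ : P →* MulAut V} {x : P}
    (h : ∀ g : P, g * x * g⁻¹ ∈ zpowers x) : AutInv φ (fixOne φ x) := by
  intro g v hv
  have := apply_mem_fixOne (zpow_apply_of_mem_fixOne hv (h g⁻¹)) g
  simpa [mul_assoc] using this

theorem exists_four {P : Type*} [Group P] [Finite P] (hP : IsPGroup 2 P) (A : Subgroup P)
    [hA : A.Normal] (hc : IsMulCommutative A) (hnc : ¬ IsCyclic A) :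
    ∃ z e : P, z ∈ center P ∧ z ≠ 1 ∧ z ^ 2 = 1 ∧ e ≠ 1 ∧ e ≠ z ∧ e ^ 2 = 1 ∧
      ∀ g : P, g * e * g⁻¹ = e ∨ g * e * g⁻¹ = e * z := by
  classical
  let Ω : Subgroup P :=
    { carrier := {x | x ∈ A ∧ x ^ 2 = 1}
      one_mem' := ⟨one_mem _, one_pow _⟩
      mul_mem' := fun {a b} ha hb => ⟨mul_mem ha.1 hb.1, by
        rw [Commute.mul_pow (setLike_mul_comm ha.1 hb.1), ha.2, hb.2, one_mul]⟩
      inv_mem' := fun ha => ⟨inv_mem ha.1, by rw [inv_pow, ha.2, inv_one]⟩ }
  have hΩ : Ω.Normal := ⟨fun x hx g => ⟨hA.conj_mem x hx.1 g, by rw [conj_pow, hx.2]; simp⟩⟩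
  obtain ⟨x, y, hx, hy, hxy⟩ : ∃ x y : A, orderOf x = 2 ∧ orderOf y = 2 ∧ y ∉ zpowers x := by
    by_contra hcon
    push Not at hcon
    refine hnc (Frob.isCyclic_of_comm_of_forall_mem_zpowers hc fun p hp x y hx hy => ?_)
    obtain ⟨k, hk⟩ := hP.to_subgroup A x
    obtain rfl : p = 2 := (Nat.prime_dvd_prime_iff_eq hp Nat.prime_two).1
      (hp.dvd_of_dvd_pow (hx ▸ orderOf_dvd_of_pow_eq_one hk))
    exact hcon x y hx hy
  have hxΩ : (x : P) ∈ Ω := ⟨x.2, by rw [← hx, ← orderOf_coe, pow_orderOf_eq_one]⟩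
  have hyΩ : (y : P) ∈ Ω := ⟨y.2, by rw [← hy, ← orderOf_coe, pow_orderOf_eq_one]⟩
  have hx1 : (x : P) ≠ 1 := fun h => by
    rw [← orderOf_coe, h, orderOf_one] at hx; exact absurd hx (by norm_num)
  have hΩ1 : Ω ≠ ⊥ := fun h => hx1 (by rw [← mem_bot, ← h]; exact hxΩ)
  have := hP.isNilpotent
  obtain ⟨z, hzΩ, hz, hz1⟩ := PGroup.exists_mem_center_of_normal Ω hΩ1
  have hzn : (zpowers z).Normal := Core.normal_of_le_center (zpowers_le.2 hz)
  have hoz : orderOf z = 2 := orderOf_eq_prime hzΩ.2 hz1
  have hmem : ∀ w, w ∈ zpowers z → w = 1 ∨ w = z := by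
    intro w hw
    obtain ⟨i, hi, rfl⟩ := (mem_zpowers_iff_mem_range_orderOf.1 hw : _ ∈ Finset.image _ _) |>
      Finset.mem_image.1
    rw [hoz, Finset.mem_range] at hi
    interval_cases i <;> simp
  have hnle : ¬ Ω ≤ zpowers z := by
    intro hle
    apply hxy
    rcases hmem _ (hle hyΩ) with h | h
    · rw [show y = 1 from Subtype.ext h]; exact one_mem _
    · rcases hmem _ (hle hxΩ) with h' | h'
      · exact absurd h' hx1
      · rw [show y = x from Subtype.ext (h.trans h'.symm)]; exact mem_zpowers x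
  obtain ⟨e, heΩ, he, hec⟩ := PGroup.exists_central_mod_of_not_le hnle
  refine ⟨z, e, hz, hz1, hzΩ.2, fun h => he (h ▸ one_mem _), fun h => he (h ▸ mem_zpowers _),
    heΩ.2, fun g => ?_⟩
  have h1 : e * e = 1 := by rw [← pow_two]; exact heΩ.2
  have h2 : g * e * g⁻¹ = e * ⁅e, g⁆ := by
    rw [commutatorElement_def, ← mul_assoc, ← mul_assoc, ← mul_assoc, h1,
      inv_eq_of_mul_eq_one_right h1, one_mul]
  rcases hmem _ (hec g) with h | h <;> simp [h2, h]

theorem fix_of_subAut_eq_one {P V : Type*} [Group P] [Group V] {φ : P →* MulAut V}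
    {U : Subgroup V} (hU : AutInv φ U) {a : P} (h : subAut φ U hU a = 1) {u : V} (hu : u ∈ U) :
    φ a u = u :=
  congrArg Subtype.val (DFunLike.congr_fun h (⟨u, hu⟩ : U))

universe u

theorem index_commutator_lt_aux (n : ℕ) : ∀ (V : Type u) [CommGroup V] [Finite V] [Nontrivial V],
    Nat.card V = n → Odd n → ∀ (P : Type u) [Group P] [Finite P] (φ : P →* MulAut V),
      Function.Injective φ → IsPGroup 2 P → (commutator P).index < n := by
  induction n using Nat.strong_induction_on with
  | _ n ih =>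
  intro V _ _ _ hn hodd P _ _ φ hφ hP
  have hcop : ∀ (Q : Type u) [Group Q] [Finite Q], IsPGroup 2 Q → (Nat.card Q).Coprime n :=
    fun Q _ _ hQ => Core.isPGroup_coprime_card hQ hodd.coprime_two_right
  have hsub : ∀ (W : Subgroup V), W ≠ ⊥ → W ≠ ⊤ → ∀ (Q : Type u) [Group Q] [Finite Q]
      (ψ : Q →* MulAut W), Function.Injective ψ → IsPGroup 2 Q →
      (commutator Q).index < Nat.card W := by
    intro W hW hW' Q _ _ ψ hψ hQ
    have := (nontrivial_iff_ne_bot W).2 hW
    exact ih _ (hn ▸ Core.card_lt_of_ne_top hW') W rfl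
      (hodd.of_dvd_nat (hn ▸ card_subgroup_dvd_card W)) Q ψ hψ hQ
  by_cases hred : ∃ U : Subgroup V, AutInv φ U ∧ U ≠ ⊥ ∧ U ≠ ⊤
  · obtain ⟨U, hU, hU1, hU2⟩ := hred
    set K := (subAut φ U hU).ker with hK
    have h1 := hsub U hU1 hU2 _ (subAut φ U hU).range.subtype (subtype_injective _)
      (hP.of_surjective _ (subAut φ U hU).rangeRestrict_surjective)
    rw [index_commutator_range, ← hK] at h1
    have : Nontrivial (V ⧸ U) := QuotientGroup.nontrivial_iff.2 hU2
    have h2 := ih _ (hn ▸ Core.card_quotient_lt_of_ne_bot hU1) (V ⧸ U) rfl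
      (hodd.of_dvd_nat (hn ▸ card_quotient_dvd_card U)) K ((Solv.quotAut φ U hU).comp K.subtype) (by
        rw [injective_iff_map_eq_one]
        intro a ha
        have h3 := le_autFix_of_autComm_le (φ := φ.comp (zpowers (a : P)).subtype) (K := ⊤) (N := U)
          le_top (autComm_le_iff.2 fun b g _ => ?_) ((hcop _ (hP.to_subgroup _)).coprime_dvd_right
            (hn ▸ card_subgroup_dvd_card U)) (fun u hu b => zpow_apply_of_mem_fixOne (φ := φ) (x := a)
              (v := u) (y := b) (fix_of_subAut_eq_one hU a.2 hu) b.2)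
        · exact Subtype.ext (hφ (by
            ext v
            rw [coe_one, map_one]
            exact h3 (mem_top v) ⟨a, mem_zpowers _⟩))
        · have h4 : (b : P) ∈ (Solv.quotAut φ U hU).ker := zpowers_le.2 ha b.2
          exact QuotientGroup.eq.1 (DFunLike.congr_fun (MonoidHom.mem_ker.1 h4) (g : V ⧸ U)).symm)
      (hP.to_subgroup K)
    have h3 := relIndex_le_index_commutator (D := commutator P) (K := K)
      (commutator_mono le_top le_top)
    rw [← relIndex_mul_index (le_sup_left : commutator P ≤ commutator P ⊔ K), relIndex_sup_left,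
      ← hn, card_eq_card_quotient_mul_card_subgroup U]
    exact Nat.mul_lt_mul'' (h3.trans_lt h2) h1
  push Not at hred
  have hfix : ∀ x : P, x ≠ 1 → fixOne φ x ≠ ⊤ := fun x hx h => hx (hφ (by
    ext v
    rw [map_one]
    exact (h ▸ mem_top v : v ∈ fixOne φ x)))
  have hfpf : ∀ x : P, x ≠ 1 → (∀ g : P, g * x * g⁻¹ ∈ zpowers x) → fixOne φ x = ⊥ := by
    intro x hx h
    by_contra hne
    exact hfix x hx (hred _ (autInv_fixOne h) hne)
  by_cases hA : ∀ A : Subgroup P, A.Normal → IsMulCommutative A → IsCyclic A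
  · have key : ∀ a : P, (zpowers a).Normal → Nat.card (zpowers a) < n := by
      intro a ha
      let X := {v : V // v ≠ 1}
      let : MulAction (zpowers a) X :=
        { smul := fun c v => ⟨φ c v.1, by simpa using v.2⟩
          one_smul := fun v => Subtype.ext (by change φ 1 v.1 = v.1; simp)
          mul_smul := fun c d v => Subtype.ext (by
            change φ (c * d) v.1 = φ c (φ d v.1); simp) }
      have hd := card_dvd_of_free (A := zpowers a) (X := X) fun c v hv => by
        by_contra hc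
        obtain ⟨c, i, rfl⟩ := c
        have h1 := hfpf (a ^ i) (fun h => hc (Subtype.ext h)) fun g => by
          obtain ⟨k, hk⟩ := ha.conj_mem a (mem_zpowers a) g
          rw [← conj_zpow, ← hk, ← zpow_mul, mul_comm, zpow_mul]
          exact zpow_mem_zpowers _ _
        have h2 : v.1 ∈ fixOne φ (a ^ i) := congrArg Subtype.val hv
        rw [h1] at h2
        exact v.2 h2
      have hX : Nat.card X + 1 = n := by
        rw [← hn]
        have := Fintype.ofFinite V
        classical
        rw [Nat.card_eq_fintype_card, Nat.card_eq_fintype_card, Fintype.card_subtype_compl,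
          Fintype.card_subtype_eq]
        have := Fintype.card_pos (α := V)
        omega
      have hX1 : 1 < n := hn ▸ Finite.one_lt_card
      have := Nat.le_of_dvd (by omega) hd
      omega
    rcases Frob.exists_gens_of_forall_normal_isCyclic hP hA with h | ⟨-, a, b, m, hi, ha, hb, h⟩
    · obtain ⟨a, ha⟩ := isCyclic_iff_exists_zpowers_eq_top.1 h
      have h1 := key a (ha ▸ inferInstance)
      rw [ha, card_top] at h1
      exact (Nat.le_of_dvd Nat.card_pos (index_dvd_card _)).trans_lt h1
    · have h1 := key a (normal_of_index_eq_two hi)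
      have h2 := (zpowers a).card_mul_index
      have h3 := (commutator P).card_mul_index
      have h4 : 1 < Nat.card (commutator P) := by
        rw [one_lt_card_iff_ne_bot]
        intro hc
        have hc' : IsMulCommutative (⊤ : Subgroup P) := ⟨⟨fun x y => Subtype.ext
          (commutatorElement_eq_one_iff_mul_comm.1 (by
            rw [← mem_bot, ← hc]; exact commutator_mem_commutator trivial trivial))⟩⟩
        have h5 := topEquiv.isCyclic.1 (hA ⊤ inferInstance hc')
        have h6 : b * a * b⁻¹ = a := by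
          rw [(Core.isMulCommutative_iff_forall.1 hc') b trivial a trivial, mul_inv_cancel_right]
        rw [h6] at h
        have h7 : ∀ k, 0 < k → k < 2 ^ m → a ^ k ≠ 1 := fun k h0 hk h' =>
          absurd (Nat.le_of_dvd h0 (orderOf_dvd_of_pow_eq_one h')) (by omega)
        have h8 : 2 ≤ m → a = a⁻¹ → False := fun hm h' =>
          h7 2 two_pos (lt_of_lt_of_le (by norm_num) (Nat.pow_le_pow_right two_pos hm))
            (by rw [pow_two]; nth_rw 1 [h']; simp)
        rcases h with ⟨h9, -, h⟩ | ⟨h9, -, h⟩ | ⟨h9, -, h⟩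
        · exact h8 (by omega) h
        · exact h8 h9 h
        · obtain ⟨k, rfl⟩ : ∃ k, m = k + 3 := ⟨m - 3, by omega⟩
          have h10 : 0 < 2 ^ k := by positivity
          have h11 : 2 ^ (k + 2) = 4 * 2 ^ k := by ring
          have h12 : 2 ^ (k + 3) = 8 * 2 ^ k := by ring
          refine h7 (2 ^ (k + 2) - 2) (by omega) (by omega) ?_
          rw [show k + 3 - 1 = k + 2 from rfl, show 2 ^ (k + 2) - 1 = 2 ^ (k + 2) - 2 + 1 by omega,
            pow_succ] at h
          exact (mul_eq_right.1 h.symm)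
      rw [hi] at h2
      nlinarith
  push Not at hA
  obtain ⟨A, hAn, hAc, hA⟩ := hA
  obtain ⟨z, e, hz, hz1, hz2, he1, hez, he2, he⟩ := exists_four hP A hAc hA
  have hinv : ∀ x : P, x ^ 2 = 1 → fixOne φ x = ⊥ → ∀ v, φ x v = v⁻¹ := by
    intro x hx h v
    have : φ x v * v ∈ fixOne φ x := by
      rw [mem_fixOne, map_mul, ← MulAut.mul_apply, ← map_mul, ← pow_two, hx, map_one, mul_comm]
      rfl
    rw [h, mem_bot] at this
    exact eq_inv_of_mul_eq_one_left this
  have hz0 := hfpf z hz1 fun g => by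
    rw [mem_center_iff.1 hz g, mul_inv_cancel_right]; exact mem_zpowers z
  have hW : fixOne φ e ≠ ⊥ := fun h => hez (hφ (by
    ext v
    rw [hinv e he2 h, hinv z hz2 hz0]))
  obtain ⟨g, hg⟩ : ∃ g : P, g * e * g⁻¹ = e * z := by
    by_contra hc
    push Not at hc
    exact hW (hfpf e he1 fun g => by rw [(he g).resolve_right (hc g)]; exact mem_zpowers e)
  have hne : e * z ≠ e := fun h => hz1 (mul_eq_left.1 h)
  have hzz : z * z = 1 := by rw [← pow_two, hz2]
  have hconj : ∀ c : P, c * e * c⁻¹ = e * z → c * (e * z) * c⁻¹ = e := by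
    intro c hc
    rw [← mul_assoc, mul_assoc _ z, ← mem_center_iff.1 hz, ← mul_assoc, hc, mul_assoc, hzz, mul_one]
  set H := centralizer ({e} : Set P) with hH
  have hmem : ∀ c : P, c ∈ H ↔ c * e * c⁻¹ = e := fun c => by
    rw [hH, mem_centralizer_singleton_iff, mul_inv_eq_iff_eq_mul]
  have hHi : H.index = 2 := by
    rw [index_eq_two_iff]
    refine ⟨g, fun c => ?_⟩
    rw [hmem, hmem, show c * g * e * (c * g)⁻¹ = c * (g * e * g⁻¹) * c⁻¹ by group, hg]
    rcases he c with h | h
    · refine Or.inr ⟨h, ?_⟩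
      rw [← mul_assoc, mul_assoc _ z, ← mem_center_iff.1 hz, ← mul_assoc, h]
      exact hne
    · exact Or.inl ⟨hconj c h, h ▸ hne⟩
  have := normal_of_index_eq_two hHi
  have hWi : AutInv (φ.comp H.subtype) (fixOne φ e) := fun c v hv => by
    have := apply_mem_fixOne hv (c : P)
    rwa [(hmem c).1 c.2] at this
  set ρ := subAut _ _ hWi with hρ
  have hker : ρ.rangeRestrict.ker ⊓ (ρ.rangeRestrict.comp (MulAut.conjNormal g).toMonoidHom).ker
      = ⊥ := by
    rw [eq_bot_iff]
    rintro c ⟨hc1, hc2⟩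
    have h1 : ∀ w ∈ fixOne φ e, φ c w = w := fun w hw =>
      fix_of_subAut_eq_one hWi (congrArg Subtype.val hc1) hw
    have h2 : ∀ w ∈ fixOne φ (e * z), φ c w = w := fun w hw => by
      have h3 := apply_mem_fixOne hw g
      rw [hconj g hg] at h3
      have h4 : φ (g * c * g⁻¹) (φ g w) = φ g w := 
        fix_of_subAut_eq_one hWi (a := MulAut.conjNormal g c) (congrArg Subtype.val hc2) h3
      simpa using h4
    have hee : ∀ v, φ e (φ e v) = v := fun v => by
      rw [← MulAut.mul_apply, ← map_mul, ← pow_two, he2, map_one]; rfl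
    have h3 : ∀ v, φ c (v ^ 2) = v ^ 2 := fun v => by
      have h4 : v ^ 2 = (v * φ e v) * (v * (φ e v)⁻¹) := by
        rw [mul_mul_mul_comm, mul_inv_cancel, mul_one, pow_two]
      rw [h4, map_mul, h1, h2]
      · rw [mem_fixOne, map_mul φ, MulAut.mul_apply, hinv z hz2 hz0]
        simp [hee, mul_comm]
      · rw [mem_fixOne, map_mul, hee, mul_comm]
    refine Subtype.ext (hφ ?_)
    ext v
    obtain ⟨w, rfl⟩ := (powCoprime (G := V) (hn ▸ hodd.coprime_two_right)).surjective v
    rw [coe_one, map_one]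
    exact h3 w
  have hB := lemB H hHi ρ.rangeRestrict ρ.rangeRestrict_surjective g hker
  have hX : IsPGroup 2 ρ.range := (hP.to_subgroup H).of_surjective _ ρ.rangeRestrict_surjective
  have hX1 : commutator ρ.range ≠ ⊤ := by
    have : Nontrivial ρ.range := by
      refine nontrivial_of_ne (ρ.rangeRestrict ⟨z, center_le_centralizer _ hz⟩) 1 fun h => hW ?_
      rw [eq_bot_iff, ← hz0]
      intro w hw
      exact fix_of_subAut_eq_one hWi (congrArg Subtype.val h) hw
    have := hX.isNilpotent
    exact (Group.IsSolvable.commutator_lt_top_of_nontrivial _).ne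
  have := ((ρ.rangeRestrict.comp (MulAut.conjNormal g).toMonoidHom).normal_ker).map _
    ρ.rangeRestrict_surjective
  have hA' := lemA hX1 ((ρ.rangeRestrict.comp (MulAut.conjNormal g).toMonoidHom).ker.map
    ρ.rangeRestrict) (b := Nat.card (fixOne φ e) - 1) fun Y => Nat.le_sub_one_of_lt
      (hsub _ hW (hfix e he1) Y (ρ.range.subtype.comp Y.subtype)
        ((subtype_injective _).comp (subtype_injective _)) (hX.to_subgroup Y))
  have hd : fixOne φ e ⊓ fixOne φ (e * z) = ⊥ := by
    rw [eq_bot_iff, ← hz0]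
    intro v hv
    have h1 : φ e v = v := hv.1
    have h2 : φ (e * z) v = v := hv.2
    rw [map_mul, MulAut.mul_apply] at h2
    exact (φ e).injective (h2.trans h1.symm)
  have hc1 := Core.card_sup_of_le_normalizer_of_disjoint le_normalizer_of_normal hd
  have hc2 : Nat.card (fixOne φ e) ≤ Nat.card (fixOne φ (e * z)) :=
    Nat.card_le_card_of_injective (fun v => ⟨φ g v, hg ▸ apply_mem_fixOne v.2 g⟩)
      fun v w h => Subtype.ext ((φ g).injective (congrArg Subtype.val h))
  have hc3 := card_le_card_group (fixOne φ e ⊔ fixOne φ (e * z))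
  have hc4 : 0 < Nat.card (fixOne φ e) := Nat.card_pos
  have hc5 : (Nat.card (fixOne φ e) - 1) ^ 2 < Nat.card (fixOne φ e) ^ 2 :=
    Nat.pow_lt_pow_left (by omega) two_ne_zero
  rw [hc1, hn] at hc3
  nlinarith

/-- A `2`-group acting faithfully on a nontrivial abelian group `V` of odd order has
`|P : P'| < |V|`. -/
theorem index_commutator_lt_card {V : Type u} [Group V] [Finite V] [Nontrivial V]
    [IsMulCommutative V] (hodd : Odd (Nat.card V)) {P : Type u} [Group P] [Finite P]
    (φ : P →* MulAut V) (hφ : Function.Injective φ) (hP : IsPGroup 2 P) :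
    (commutator P).index < Nat.card V :=
  let _ : CommGroup V := { (inferInstance : Group V) with mul_comm := mul_comm' }
  index_commutator_lt_aux _ V rfl hodd P φ hφ hP

end CfsgLib.Fgs
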